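import Cfsg.Agent.H839.Rad.Extra
import Cfsg.Agent.H235.AA.Center

/-!
# The `AA` problem for a group with a large extraspecial subgroup `p ^ (1 + 4)` (helper235, after helper839's `noRad_of_ext`)

`np_of_ext` : `Q = p ^ (1 + 4)` of index at most `p` in a Sylow `p`-subgroup: `NP p K`; every odd `p`.
-/

set_option autoImplicit false

namespace Cfsg.Agent.H235.AA.Center

open Subgroup Cfsg Cfsg.Agent.H839.Rad Cfsg.Agent.H235.AA.Tools

variable {K : Type*} [Group K] {p : ℕ}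

/-- **The criterion for `Q = p ^ (1 + 4)` of index at most `p` in a Sylow subgroup** -/
theorem np_of_ext [Finite K] {w a b c d g : K} (hp : p.Prime) (hp2 : p ≠ 2)
    (E : Ext p w a b c d) (hga : g * a * g⁻¹ = w) (h1 : g * w * g⁻¹ ∈ E.Q) (h1' : g * w * g⁻¹ ∉ zpowers w)
    (hgc : g * c * g⁻¹ ∈ E.Q) (hgd : ∀ y ∈ E.Q, g * d * g⁻¹ * y * (g * d * g⁻¹)⁻¹ ∈ E.Q)
    (hirr : ∀ x ∈ E.Q, (∀ t : K, t * w = w * t → (∀ a ∈ E.Q, t * a * t⁻¹ ∈ E.Q) →
      x * (t * (g * w * g⁻¹) * t⁻¹) = t * (g * w * g⁻¹) * t⁻¹ * x) → x ∈ zpowers w)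
    (hcard : ¬ p ^ 7 ∣ Nat.card K) : NP p K := by
  have h2 : Odd p := hp.odd_of_ne_two hp2
  have hwa : g⁻¹ * w * g = a := by rw [← hga]; group
  have D : Centre p w (g * w * g⁻¹) g E.Q :=
    ⟨E.hw, E.w_mem, E.comm_w, E.commutator_mem, rfl, h1, h1', by rw [hwa]; exact E.a_mem, hirr⟩
  refine np_of_index D hp (E.isPGroup h2) ?_ ?_ ?_
  · intro h3
    apply hcard
    refine Dvd.dvd.trans ?_ h3
    rw [show (7 : ℕ) = 2 + 5 from rfl, pow_add]
    exact mul_dvd_mul_left _ (E.pow_dvd_card hp h2)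
  · exact (Nat.pow_le_pow_right hp.pos (by norm_num)).trans E.le_card
  · intro e he hew
    obtain ⟨i, j, k, l, m, hnf⟩ := he
    -- `g⁻¹ e g` commutes with `a`
    have h3 : (g⁻¹ * e * g) * a = a * (g⁻¹ * e * g) := by
      rw [← hwa]
      calc g⁻¹ * e * g * (g⁻¹ * w * g) = g⁻¹ * (e * w) * g := by group
        _ = g⁻¹ * (w * e) * g := by rw [hew]
        _ = _ := by group
    have h4 : (p : ℤ) ∣ j := by
      rw [hnf] at h3
      have h5 : a = Ext.nf w a b c d 1 0 0 0 0 := by simp [Ext.nf]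
      have h6 : Ext.nf w a b c d i j k l m * Ext.nf w a b c d 1 0 0 0 0 =
          Ext.nf w a b c d 1 0 0 0 0 * Ext.nf w a b c d i j k l m := by rw [← h5]; exact h3
      simpa using E.comm_iff.1 h6
    obtain ⟨j, rfl⟩ := h4
    have h5 : e = w ^ i * (g * c * g⁻¹) ^ k * (g * d * g⁻¹) ^ l * (g * w * g⁻¹) ^ m := by
      have h6 : e = g * (g⁻¹ * e * g) * g⁻¹ := by group
      rw [h6, hnf]
      unfold Ext.nf
      rw [zpow_mul, zpow_natCast, E.hb, one_zpow, mul_one]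
      conv_rhs => rw [← hga]
      rw [conj_zpow, conj_zpow, conj_zpow, hga]
      have h7 : (g * w * g⁻¹) ^ m = g * w ^ m * g⁻¹ := conj_zpow
      rw [h7]
      group
    have hN : ∀ x ∈ E.Q, x ∈ normalizer (E.Q : Set K) := fun x hx => le_normalizer hx
    have h6 : e ∈ normalizer (E.Q : Set K) := by
      rw [h5]
      exact mul_mem (mul_mem (mul_mem (hN _ (E.wpow_mem i)) (zpow_mem (hN _ hgc) k))
        (zpow_mem (mem_normalizer_of hgd) l)) (zpow_mem (hN _ h1) m)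
    exact fun a ha => (mem_normalizer_iff.1 h6 a).1 ha

end Cfsg.Agent.H235.AA.Center
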