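import Cfsg.Agent.Lib.PackMatMul

/-!
# Straight line programs of packed matrices in stages (helper235)

A stage runs a part of a straight line program and compares the results which are needed later with literals; all
other results are replaced by `0` (`CodesD C g A`: `A` is `0` or the reduced packed matrix of `g`).  The memory of the
kernel grows with the number of products in one theorem.
-/

set_option autoImplicit false

namespace Cfsg.Agent.H235.AA.Stage

open Cfsg.Agent.Lib.PackMat Cfsg.Agent.Lib.PackMatGroup Cfsg.Agent.Lib.PackMatMul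

variable {C : Cfg}

/-- `A` is `0` or the reduced packed matrix of `g` -/
def CodesD (C : Cfg) (g : U C) (A : ℕ) : Prop := RedG C A ∧ (A ≠ 0 → (g : M C) = mat C A)

theorem redG_zero (hC : Good C) : RedG C 0 := by
  refine ⟨Nat.two_pow_pos _, fun i _ => ?_⟩
  rw [dg_def, Nat.zero_div, Nat.zero_mod]
  exact hC.hp

theorem mat_zero : mat C 0 = 0 := by
  funext j k
  rw [mat_def, dg_def, Nat.zero_div, Nat.zero_mod, Nat.cast_zero]
  rfl

theorem ofR {g : U C} {A : ℕ} (h : CodesR C g A) : CodesD C g A := ⟨h.1, fun _ => h.2⟩

theorem CodesD.toR {g : U C} {A : ℕ} (h : CodesD C g A) (h0 : A ≠ 0) : CodesR C g A := ⟨h.1, h.2 h0⟩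

theorem codesD_zero (hC : Good C) (g : U C) : CodesD C g 0 := ⟨redG_zero hC, fun h => absurd rfl h⟩

theorem CodesD.mul (hC : Good C) {g h : U C} {A B : ℕ} (hg : CodesD C g A) (hh : CodesD C h B) :
    CodesD C (g * h) (mulM C A B) := by
  obtain ⟨h1, h2⟩ := mulM_spec hC hg.1 hh.1
  refine ⟨h1, fun h0 => ?_⟩
  have hA : A ≠ 0 := by
    rintro rfl
    exact h0 (redG_inj h1 (redG_zero hC) (by rw [h2, mat_zero, zero_mul]))
  have hB : B ≠ 0 := by
    rintro rfl
    exact h0 (redG_inj h1 (redG_zero hC) (by rw [h2, mat_zero, mul_zero]))
  rw [h2, ← hg.2 hA, ← hh.2 hB, Units.val_mul]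

theorem codesD_get {LG : List (U C)} {L : List ℕ} (h : List.Forall₂ (CodesD C) LG L) {i : ℕ}
    (hi : i < L.length) : CodesD C (LG.getD i 1) (get L i) := by
  induction h generalizing i with
  | nil => simp at hi
  | cons h1 _ ih =>
    rcases i with _ | i
    · exact h1
    · rw [List.getD_cons_succ, get_cons_succ]
      exact ih (by simpa using hi)

theorem codesD_evL (hC : Good C) {LG : List (U C)} {L : List ℕ} (h : List.Forall₂ (CodesD C) LG L)
    {w : List ℕ} (hw : okW L.length w = true) :
    ∀ {g : U C} {acc : ℕ}, CodesD C g acc → CodesD C (g * evG LG w) (evL (mulM C) L w acc) := by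
  induction w with
  | nil =>
    intro g acc hg
    rw [evG_nil, mul_one]
    exact hg
  | cons i w ih =>
    intro g acc hg
    obtain ⟨h1, h2⟩ := okW_cons hw
    rw [evG_cons, ← mul_assoc, evL_cons]
    exact ih h2 (hg.mul hC (codesD_get h h1))

theorem codesD_ev (hC : Good C) {LG : List (U C)} {L : List ℕ} (h : List.Forall₂ (CodesD C) LG L)
    {i : ℕ} (hi : i < L.length) {w : List ℕ} (hw : okW L.length w = true) :
    CodesD C (evG LG (i :: w)) (evL (mulM C) L w (get L i)) := by
  rw [evG_cons]
  exact codesD_evL hC h hw (codesD_get h hi)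

theorem runS_soundD (hC : Good C) {ws : List (ℕ × List ℕ)} {LG : List (U C)} {L : List ℕ}
    {k : List ℕ → Bool} (h : List.Forall₂ (CodesD C) LG L) (hok : okS ws L.length = true)
    (hr : runS (mulM C) ws L k = true) :
    ∃ L', List.Forall₂ (CodesD C) (runG ws LG) L' ∧ k L' = true := by
  induction ws generalizing LG L with
  | nil => exact ⟨L, h, hr⟩
  | cons w ws ih =>
    obtain ⟨h1, h2, h3⟩ := okS_cons hok
    rw [runS_cons] at hr
    rw [runG_cons]
    exact ih (List.Forall₂.cons (codesD_ev hC h h1 h2) h) h3 hr

/-- The results with indices `(a, b)` in the list have equal codes, not `0`. -/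
noncomputable def eqD (es : List (ℕ × ℕ)) (L : List ℕ) : Bool :=
  List.rec true (fun q _ ih => bif Nat.beq (get L q.1) 0 then false else
    bif Nat.beq (get L q.1) (get L q.2) then ih else false) es

/-- The results with indices `(a, b)` in the list have different codes, not `0`. -/
noncomputable def neD (es : List (ℕ × ℕ)) (L : List ℕ) : Bool :=
  List.rec true (fun q _ ih => bif Nat.beq (get L q.1) 0 then false else bif Nat.beq (get L q.2) 0 then false else
    bif Nat.beq (get L q.1) (get L q.2) then false else ih) es

/-- The first list is a beginning of the second one with some entries replaced by `0`. -/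
noncomputable def subD (N L : List ℕ) : Bool :=
  List.rec (motive := fun _ => List ℕ → Bool) (fun _ => true)
    (fun a _ ih L => List.rec (motive := fun _ => Bool) false
      (fun b L' _ => bif Nat.beq a 0 then ih L' else bif Nat.beq a b then ih L' else false) L) N L

/-- One stage: the program `ws`, starting with the codes `L`, gives the codes `N` of the results. -/
noncomputable def stage (C : Cfg) (ws : List (ℕ × List ℕ)) (es ns : List (ℕ × ℕ)) (L N : List ℕ) : Bool :=
  bif okS ws L.length then
    withM C fun f => runS f ws L fun L' => bif eqD es L' then bif neD ns L' then subD N L' else false else false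
  else false

theorem eqD_sound {es : List (ℕ × ℕ)} {LG : List (U C)} {L : List ℕ} (h : List.Forall₂ (CodesD C) LG L)
    (he : eqD es L = true) (hr : ∀ q ∈ es, q.1 < L.length ∧ q.2 < L.length) :
    ∀ q ∈ es, LG.getD q.1 1 = LG.getD q.2 1 := by
  induction es with
  | nil => intro q hq; simp at hq
  | cons a es ih =>
    have he' : (bif Nat.beq (get L a.1) 0 then false else
      bif Nat.beq (get L a.1) (get L a.2) then eqD es L else false) = true := he
    rcases hz : Nat.beq (get L a.1) 0 with _ | _
    swap
    · rw [hz] at he'; simp at he'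
    rw [hz, cond_false] at he'
    rcases hb : Nat.beq (get L a.1) (get L a.2) with _ | _
    · rw [hb] at he'; simp at he'
    rw [hb, cond_true] at he'
    have h0 : get L a.1 ≠ 0 := fun h' => by rw [h', Nat.beq_refl] at hz; exact absurd hz (by simp)
    have hab := Nat.eq_of_beq_eq_true hb
    intro q hq
    rcases List.mem_cons.mp hq with rfl | hq
    · obtain ⟨h1, h2⟩ := hr q List.mem_cons_self
      exact ((codesD_get h h1).toR h0).eq ((codesD_get h h2).toR (hab ▸ h0)) hab
    · exact ih he' (fun q hq => hr q (List.mem_cons_of_mem _ hq)) q hq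

theorem neD_sound {es : List (ℕ × ℕ)} {LG : List (U C)} {L : List ℕ} (h : List.Forall₂ (CodesD C) LG L)
    (he : neD es L = true) (hr : ∀ q ∈ es, q.1 < L.length ∧ q.2 < L.length) :
    ∀ q ∈ es, LG.getD q.1 1 ≠ LG.getD q.2 1 := by
  induction es with
  | nil => intro q hq; simp at hq
  | cons a es ih =>
    have he' : (bif Nat.beq (get L a.1) 0 then false else bif Nat.beq (get L a.2) 0 then false else
      bif Nat.beq (get L a.1) (get L a.2) then false else neD es L) = true := he
    rcases hz : Nat.beq (get L a.1) 0 with _ | _
    swap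
    · rw [hz] at he'; simp at he'
    rw [hz, cond_false] at he'
    rcases hz2 : Nat.beq (get L a.2) 0 with _ | _
    swap
    · rw [hz2] at he'; simp at he'
    rw [hz2, cond_false] at he'
    rcases hb : Nat.beq (get L a.1) (get L a.2) with _ | _
    swap
    · rw [hb] at he'; simp at he'
    rw [hb, cond_false] at he'
    have h0 : get L a.1 ≠ 0 := fun h' => by rw [h', Nat.beq_refl] at hz; exact absurd hz (by simp)
    have h0' : get L a.2 ≠ 0 := fun h' => by rw [h', Nat.beq_refl] at hz2; exact absurd hz2 (by simp)
    intro q hq
    rcases List.mem_cons.mp hq with rfl | hq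
    · obtain ⟨h1, h2⟩ := hr q List.mem_cons_self
      intro heq
      have h3 := (codesD_get h h1).toR h0
      have h4 := (codesD_get h h2).toR h0'
      rw [heq] at h3
      rw [h3.code_eq h4, Nat.beq_refl] at hb
      exact absurd hb (by simp)
    · exact ih he' (fun q hq => hr q (List.mem_cons_of_mem _ hq)) q hq

theorem subD_sound (hC : Good C) {N : List ℕ} : ∀ {LG : List (U C)} {L : List ℕ},
    List.Forall₂ (CodesD C) LG L → subD N L = true → N.length = L.length → List.Forall₂ (CodesD C) LG N := by
  induction N with
  | nil =>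
    intro LG L h _ hl
    cases h with
    | nil => exact .nil
    | cons _ _ => simp at hl
  | cons a N ih =>
    intro LG L h hs hl
    cases h with
    | nil => simp at hl
    | @cons g b LG L h1 h2 =>
      have hs' : (bif Nat.beq a 0 then subD N L else bif Nat.beq a b then subD N L else false) = true := hs
      have hl' : N.length = L.length := by simpa using hl
      rcases hz : Nat.beq a 0 with _ | _
      · rw [hz, cond_false] at hs'
        rcases hb : Nat.beq a b with _ | _
        · rw [hb] at hs'; simp at hs'
        rw [hb, cond_true] at hs'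
        rw [Nat.eq_of_beq_eq_true hb]
        exact .cons h1 (ih h2 hs' hl')
      · rw [hz, cond_true] at hs'
        rw [Nat.eq_of_beq_eq_true hz]
        exact .cons (codesD_zero hC g) (ih h2 hs' hl')

/-- **Soundness of a stage.** -/
theorem stage_sound (hC : Good C) {LG : List (U C)} {L : List ℕ} (h : List.Forall₂ (CodesD C) LG L)
    {ws : List (ℕ × List ℕ)} {es ns : List (ℕ × ℕ)} {N : List ℕ} (hc : stage C ws es ns L N = true)
    (hr : ∀ q ∈ es ++ ns, q.1 < ws.length + L.length ∧ q.2 < ws.length + L.length) :
    (∀ q ∈ es, (runG ws LG).getD q.1 1 = (runG ws LG).getD q.2 1) ∧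
      (∀ q ∈ ns, (runG ws LG).getD q.1 1 ≠ (runG ws LG).getD q.2 1) ∧
      (N.length = ws.length + L.length → List.Forall₂ (CodesD C) (runG ws LG) N) := by
  unfold stage at hc
  rcases h1 : okS ws L.length with _ | _
  · rw [h1] at hc; simp at hc
  rw [h1, cond_true, withM_eq] at hc
  obtain ⟨L', h2, h3⟩ := runS_soundD hC h h1 hc
  have hlen : L'.length = ws.length + L.length := by
    have hl : ∀ (ws : List (ℕ × List ℕ)) (LG : List (U C)), (runG ws LG).length = ws.length + LG.length := by
      intro ws
      induction ws with
      | nil => intro LG; rw [runG_nil, List.length_nil, zero_add]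
      | cons w ws ih =>
        intro LG
        rw [runG_cons, ih, List.length_cons, List.length_cons]
        omega
    rw [← h2.length_eq, hl, h.length_eq]
  rcases h4 : eqD es L' with _ | _
  · rw [h4] at h3; simp at h3
  rw [h4, cond_true] at h3
  rcases h5 : neD ns L' with _ | _
  · rw [h5] at h3; simp at h3
  rw [h5, cond_true] at h3
  rw [← hlen] at hr ⊢
  exact ⟨eqD_sound h2 h4 fun q hq => hr q (List.mem_append_left _ hq),
    neD_sound h2 h5 fun q hq => hr q (List.mem_append_right _ hq), subD_sound hC h2 h3⟩

theorem runG_append {G : Type*} [Group G] (p q : List (ℕ × List ℕ)) (LG : List G) :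
    runG (p ++ q) LG = runG q (runG p LG) := by
  induction p generalizing LG with
  | nil => rfl
  | cons w p ih => rw [List.cons_append, runG_cons, runG_cons, ih]

end Cfsg.Agent.H235.AA.Stage
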